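import Mathlib

/-!
# Eigenvalues of an endomorphism of finite order; products determined by power sums
-/

set_option autoImplicit false

namespace CfsgLib.EigenProd

open Polynomial Module

/-- An endomorphism of finite order has a basis of eigenvectors. -/
theorem exists_eigenbasis {V : Type*} [AddCommGroup V] [Module ℂ V] [FiniteDimensional ℂ V]
    {A : Module.End ℂ V} {m : ℕ} (hm : m ≠ 0) (h : A ^ m = 1) :
    ∃ (ι : Type) (_ : Fintype ι) (μ : ι → ℂ), Fintype.card ι = Module.finrank ℂ V ∧
      (∀ i, μ i ^ m = 1) ∧ LinearMap.det A = ∏ i, μ i ∧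
      ∀ j : ℕ, LinearMap.trace ℂ V (A ^ j) = ∑ i, μ i ^ j := by
  classical
  have hsep : ((X : ℂ[X]) ^ m - C 1).Separable :=
    separable_X_pow_sub_C 1 (Nat.cast_ne_zero.2 hm) one_ne_zero
  have hss : A.IsSemisimple :=
    Module.End.isSemisimple_of_squarefree_aeval_eq_zero hsep.squarefree (by simp [h])
  have htop : (⨆ ν : ℂ, A.eigenspace ν) = ⊤ := by
    have h1 := Module.End.iSup_maxGenEigenspace_eq_top A
    simp only [hss.isFinitelySemisimple.maxGenEigenspace_eq_eigenspace] at h1
    exact h1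
  set S : Set V := {v | ∃ ν : ℂ, A v = ν • v} with hS
  have hspan : Submodule.span ℂ S = ⊤ := by
    rw [eq_top_iff, ← htop, iSup_le_iff]
    intro ν v hv
    exact Submodule.subset_span ⟨ν, Module.End.mem_eigenspace_iff.1 hv⟩
  obtain ⟨b, hbS, hbspan, hb⟩ := exists_linearIndependent ℂ S
  rw [hspan] at hbspan
  haveI : Fintype b := hb.setFinite.fintype
  let e : Fin (Fintype.card b) ≃ b := (Fintype.equivFin b).symm
  let B : Basis (Fin (Fintype.card b)) ℂ V :=
    Basis.mk (hb.comp e e.injective) (by rw [Set.range_comp, e.range_eq_univ, Set.image_univ, Subtype.range_coe, hbspan])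
  choose μ hμ using fun i => (hbS (e i).2 : ∃ ν : ℂ, A (e i : V) = ν • (e i : V))
  have hB : ∀ i, B i = (e i : V) := fun i => Basis.mk_apply _ _ i
  have hpow : ∀ (j : ℕ) i, (A ^ j) (B i) = μ i ^ j • B i := by
    intro j
    induction j with
    | zero => intro i; simp
    | succ j ih =>
      intro i
      rw [pow_succ', Module.End.mul_apply, ih, map_smul, hB, hμ, smul_smul, pow_succ]
  have hmat : ∀ j : ℕ, LinearMap.toMatrix B B (A ^ j) = Matrix.diagonal fun i => μ i ^ j := fun j => by
    ext i k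
    rw [LinearMap.toMatrix_apply, hpow, map_smul, Basis.repr_self, Finsupp.smul_single, smul_eq_mul, mul_one,
      Finsupp.single_apply, Matrix.diagonal_apply]
    split_ifs with h1 h2
    · rw [h1]
    · exact absurd h1.symm h2
    · exact absurd ‹i = k›.symm h1
    · rfl
  refine ⟨Fin (Fintype.card b), inferInstance, μ, (Module.finrank_eq_card_basis B).symm, fun i => ?_, ?_, fun j => ?_⟩
  · have h1 := hpow m i
    rw [h, Module.End.one_apply] at h1
    have h2 := congrArg (fun v => B.repr v i) h1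
    simpa using h2.symm
  · rw [← LinearMap.det_toMatrix B, ← pow_one A, hmat, Matrix.det_diagonal]
    simp
  · rw [LinearMap.trace_eq_matrix_trace ℂ B, hmat, Matrix.trace_diagonal]

theorem powerSum_count {α : Type*} [Fintype α] [DecidableEq α] {m : ℕ} (hm : m ≠ 0) (c : α → ℂ) (hc : ∀ i, c i ^ m = 1)
    {z : ℂ} (hz : z ∈ nthRootsFinset m (1 : ℂ)) :
    ((Finset.univ.filter fun i => c i = z).card : ℂ) * m = ∑ j ∈ Finset.range m, z⁻¹ ^ j * ∑ i, c i ^ j := by
  rw [mem_nthRootsFinset (Nat.pos_of_ne_zero hm)] at hz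
  have hz0 : z ≠ 0 := fun e => by rw [e, zero_pow hm] at hz; exact zero_ne_one hz
  simp only [Finset.mul_sum, ← mul_pow]
  rw [Finset.sum_comm, Finset.card_filter, Nat.cast_sum, Finset.sum_mul]
  refine Finset.sum_congr rfl fun i _ => ?_
  split_ifs with hi
  · rw [hi, inv_mul_cancel₀ hz0]
    simp
  · have hne : z⁻¹ * c i ≠ 1 := fun e => hi (by
      rw [inv_mul_eq_iff_eq_mul₀ hz0, mul_one] at e; exact e)
    rw [geom_sum_eq hne, mul_pow, inv_pow, hz, hc, inv_one, one_mul, sub_self, zero_div]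
    simp

theorem prod_eq_count {α : Type*} [Fintype α] [DecidableEq α] {m : ℕ} (hm : m ≠ 0) (c : α → ℂ) (hc : ∀ i, c i ^ m = 1) :
    ∏ i, c i = ∏ z ∈ nthRootsFinset m (1 : ℂ), z ^ (Finset.univ.filter fun i => c i = z).card := by
  rw [← Finset.prod_fiberwise_of_maps_to (g := c) (t := nthRootsFinset m (1 : ℂ))
    (fun i _ => (mem_nthRootsFinset (Nat.pos_of_ne_zero hm) _).2 (hc i))]
  refine Finset.prod_congr rfl fun z _ => ?_
  rw [Finset.prod_congr rfl (fun i hi => (Finset.mem_filter.1 hi).2), Finset.prod_const]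

/-- Families of `m`-th roots of unity with equal power sums have equal products. -/
theorem prod_eq_of_powerSum {ι κ : Type*} [Fintype ι] [Fintype κ] {m : ℕ} (hm : m ≠ 0) {a : ι → ℂ} {b : κ → ℂ}
    (ha : ∀ i, a i ^ m = 1) (hb : ∀ i, b i ^ m = 1) (h : ∀ j : ℕ, ∑ i, a i ^ j = ∑ i, b i ^ j) :
    ∏ i, a i = ∏ i, b i := by
  classical
  have hsame : ∀ z ∈ nthRootsFinset m (1 : ℂ),
      (Finset.univ.filter fun i => a i = z).card = (Finset.univ.filter fun i => b i = z).card := by
    intro z hz
    have e := powerSum_count hm a ha hz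
    rw [Finset.sum_congr rfl (fun j _ => by rw [h j]), ← powerSum_count hm b hb hz] at e
    exact_mod_cast mul_right_cancel₀ (Nat.cast_ne_zero.2 hm) e
  rw [prod_eq_count hm a ha, prod_eq_count hm b hb]
  exact Finset.prod_congr rfl fun z hz => by rw [hsame z hz]

end CfsgLib.EigenProd
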