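import Mathlib
import Cfsg.Agent.Clifford.InvariantAbove
import Cfsg.Agent.Clifford.Extend
import Cfsg.Agent.Clifford.Correspondence

/-!
# Complements in a quotient of a fully ramified section

Let `θ` be an invariant irreducible character of `Z ⊴ H`, fully ramified in `H`, and `Z ≤ K ⊴ H`. For a Sylow
subgroup `P/Z` of `H/Z` and `R = P ∩ K` the irreducible characters of `R` over `θ` form one `P`-orbit; when its
length is `|P : R|` (cyclic `P/R`, or the character of `H` induced from `K`), the stabilizer in `N_H(R)` of one of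
them maps onto a `p`-complement of `H/K`.
-/

set_option autoImplicit false

namespace CfsgLib.Clifford.RamifiedSection

open CfsgLib.CharBasics CfsgLib.Clifford

universe u

section Abstract

variable {A : Type u} [Group A] [Fintype A]

/-- A class function with only one constituent. -/
theorem eq_smul_of_unique {Ψ χ : A → ℂ} (hΨ : Cfsg.IsClassFunction A Ψ) (hχ : Cfsg.IsIrrCharacter A χ)
    (h : ∀ φ : A → ℂ, Cfsg.IsIrrCharacter A φ → Cfsg.classInner Ψ φ ≠ 0 → φ = χ) :
    Ψ = Cfsg.classInner Ψ χ • χ := by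
  classical
  have := Fintype.ofFinite (Cfsg.IrrCharacter A)
  conv_lhs => rw [classFun_expand hΨ]
  refine Finset.sum_eq_single (⟨χ, hχ⟩ : Cfsg.IrrCharacter A) (fun φ _ hne => ?_) (by simp)
  by_cases h0 : Cfsg.classInner Ψ (φ : A → ℂ) = 0
  · rw [h0, zero_smul]
  · exact absurd (Subtype.ext (h _ φ.2 h0)) hne

variable {Z : Subgroup A} [hZ : Z.Normal] [Fintype Z] {θ : Z → ℂ}

/-- The multiplicities over an invariant character: their squares sum to the index. -/
theorem sum_sq_mult (hθ : Cfsg.IsIrrCharacter Z θ) (hinv : ∀ g : A, conjFun g θ = θ)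
    [Fintype (Cfsg.IrrCharacter A)] :
    ∃ b : Cfsg.IrrCharacter A → ℕ,
      (∀ φ : Cfsg.IrrCharacter A, Cfsg.classInner (fun z : Z => (φ : A → ℂ) z) θ = b φ) ∧
      ∑ φ, b φ ^ 2 = Z.index := by
  classical
  choose b hb using fun φ : Cfsg.IrrCharacter A => classInner_characters_nat
    (CfsgLib.CharBasics.isCharacter_restrict (isCharacter_of_irr φ.2) Z) (isCharacter_of_irr hθ)
  refine ⟨b, hb, ?_⟩
  have hb' : ∀ φ : Cfsg.IrrCharacter A, Cfsg.classInner (Cfsg.indFun Z θ) (φ : A → ℂ) = b φ := fun φ => by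
    rw [classInner_indFun Z θ (isClassFunction (isCharacter_of_irr φ.2)), classInner_comm, hb φ,
      Complex.conj_natCast]
  have h := classInner_indFun_self_of_invariant (G := A) hθ hinv
  conv_lhs at h => arg 1; rw [classFun_expand (isClassFunction_indFun Z θ)]
  rw [classInner_sum_left] at h
  have h2 : ((∑ φ, b φ ^ 2 : ℕ) : ℂ) = (Z.index : ℂ) := by
    rw [← h, Nat.cast_sum]
    refine Finset.sum_congr rfl fun φ _ => ?_
    rw [classInner_smul_left, hb' φ, classInner_comm (Cfsg.indFun Z θ), hb' φ, Complex.conj_natCast]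
    push_cast; ring
  exact_mod_cast h2

/-- One character carries the whole index, so it is the only one over `θ`. -/
theorem eq_of_sq_eq_index (hθ : Cfsg.IsIrrCharacter Z θ) (hinv : ∀ g : A, conjFun g θ = θ) {η : A → ℂ}
    (hη : Cfsg.IsIrrCharacter A η) {u : ℕ} (hu : u ^ 2 = Z.index) (hηZ : ∀ z : Z, η z = (u : ℂ) * θ z)
    {φ : A → ℂ} (hφ : Cfsg.IsIrrCharacter A φ) (h : Cfsg.classInner (fun z : Z => φ z) θ ≠ 0) : φ = η := by
  classical
  have := Fintype.ofFinite (Cfsg.IrrCharacter A)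
  obtain ⟨b, hb, hsum⟩ := sum_sq_mult hθ hinv
  by_contra hne
  have hbη : b ⟨η, hη⟩ = u := by
    have h1 := hb ⟨η, hη⟩
    rw [show (fun z : Z => η z) = (u : ℂ) • θ from funext hηZ, classInner_smul_left, classInner_self hθ,
      mul_one, Nat.cast_inj] at h1
    exact h1.symm
  have h0 : b ⟨φ, hφ⟩ ≠ 0 := fun h1 => h ((hb ⟨φ, hφ⟩).trans (by rw [h1, Nat.cast_zero]))
  have h2 := Finset.sum_le_sum_of_subset (f := fun x => b x ^ 2)
    (Finset.subset_univ ({⟨η, hη⟩, ⟨φ, hφ⟩} : Finset (Cfsg.IrrCharacter A)))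
  rw [Finset.sum_pair (fun h1 => hne (congrArg Subtype.val h1).symm), hsum, hbη, hu] at h2
  exact absurd (Nat.eq_zero_of_le_zero (le_of_not_gt fun h3 => by omega : b ⟨φ, hφ⟩ ^ 2 ≤ 0))
    (pow_ne_zero 2 h0)

variable {R : Subgroup A} [hR : R.Normal] [Fintype R]

/-- The characters over `θ` of an intermediate normal subgroup, when only one character of `A` lies over `θ`. -/
theorem orbit_facts (hθ : Cfsg.IsIrrCharacter Z θ) (hinv : ∀ g : A, conjFun g θ = θ) (hZR : Z ≤ R)
    {η : A → ℂ} (hη : Cfsg.IsIrrCharacter A η) {u : ℕ} (hηZ : ∀ z : Z, η z = (u : ℂ) * θ z)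
    (huniq : ∀ φ : A → ℂ, Cfsg.IsIrrCharacter A φ → Cfsg.classInner (fun z : Z => φ z) θ ≠ 0 → φ = η)
    {ω : R → ℂ} (hω : Cfsg.IsIrrCharacter R ω)
    (hover : Cfsg.classInner (fun z : Z => ω ⟨(z : A), hZR z.2⟩) θ ≠ 0) :
    (∃ a f : ℕ, u = a * (inertia (G := A) ω).index * f ∧ R.index = a ^ 2 * (inertia (G := A) ω).index ∧
      (∀ z : Z, ω ⟨(z : A), hZR z.2⟩ = (f : ℂ) * θ z) ∧ (IsCyclic (A ⧸ R) → a = 1)) ∧
    ∀ ω' : R → ℂ, Cfsg.IsIrrCharacter R ω' →
      Cfsg.classInner (fun z : Z => ω' ⟨(z : A), hZR z.2⟩) θ ≠ 0 → ∃ x : A, ω' = conjFun x ω := by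
  classical
  have hθ1 := apply_one_ne_zero hθ
  have hη1 : η 1 = (u : ℂ) * θ 1 := by rw [← hηZ, Subgroup.coe_one]
  -- every constituent above lies over `θ`
  have hup : ∀ {w : R → ℂ}, Cfsg.IsIrrCharacter R w →
      Cfsg.classInner (fun z : Z => w ⟨(z : A), hZR z.2⟩) θ ≠ 0 → ∀ φ : A → ℂ, Cfsg.IsIrrCharacter A φ →
        Cfsg.classInner (Cfsg.indFun R w) φ ≠ 0 → φ = η := by
    intro w hw hw1 φ hφ hne
    refine huniq φ hφ ?_
    rw [classInner_indFun R w (isClassFunction (isCharacter_of_irr hφ)), classInner_comm, Ne, map_eq_zero] at hne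
    obtain ⟨S, hS, hsum⟩ := exists_eq_add_of_constituent
      (CfsgLib.CharBasics.isCharacter_restrict (isCharacter_of_irr hφ) R) hw hne
    have hs : (fun z : Z => φ z) = (fun z : Z => w (Subgroup.inclusion hZR z)) +
        fun z : Z => S (Subgroup.inclusion hZR z) := by
      funext z
      have := congrFun hsum (Subgroup.inclusion hZR z)
      simpa using this
    rw [hs]
    exact classInner_add_ne_zero_left (CfsgLib.CharBasics.isCharacter_comp (isCharacter_of_irr hw) _)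
      (CfsgLib.CharBasics.isCharacter_comp hS _) (isCharacter_of_irr hθ) hw1
  have hall : ∀ {w : R → ℂ}, Cfsg.IsIrrCharacter R w →
      Cfsg.classInner (fun z : Z => w ⟨(z : A), hZR z.2⟩) θ ≠ 0 →
      Cfsg.classInner (fun r : R => η r) w ≠ 0 := by
    intro w hw hw1 h0
    have h := congrFun (eq_smul_of_unique (isClassFunction_indFun R w) hη (hup hw hw1)) 1
    rw [Pi.smul_apply, classInner_indFun R w (isClassFunction (isCharacter_of_irr hη)), classInner_comm, h0,
      map_zero, zero_smul, indFun_apply_one, mul_eq_zero] at h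
    exact h.elim (Nat.cast_ne_zero.mpr Subgroup.index_ne_zero_of_finite) (apply_one_ne_zero hw)
  refine ⟨?_, fun ω' hω' h' => constituent_conj hη hω hω' (hall hω hover) (hall hω' h')⟩
  -- the numbers
  let T := inertia (G := A) ω
  obtain ⟨a, ha⟩ := classInner_characters_nat
    (CfsgLib.CharBasics.isCharacter_restrict (isCharacter_of_irr hη) R) (isCharacter_of_irr hω)
  obtain ⟨f, hf⟩ := classInner_characters_nat
    (CfsgLib.CharBasics.isCharacter_comp (isCharacter_of_irr hω) (Subgroup.inclusion hZR)) (isCharacter_of_irr hθ)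
  have hωZ : ∀ z : Z, ω ⟨(z : A), hZR z.2⟩ = (f : ℂ) * θ z := by
    intro z
    have h := congrFun (restrict_inertia_eq hθ R (fun g _ => hinv g) hZR hω hover) z
    rw [h, Pi.smul_apply, smul_eq_mul, show Cfsg.classInner (fun n : Z => ω ⟨(n : A), hZR n.2⟩) θ = f from hf]
  have hω1 : ω 1 = (f : ℂ) * θ 1 := hωZ 1
  have hf0 : (f : ℂ) ≠ 0 := fun h => apply_one_ne_zero hω (by rw [hω1, h, zero_mul])
  have h1 := restrict_one_eq hη hω (hall hω hover)
  rw [ha, hη1, hω1] at h1
  have hu : u = a * T.index * f := by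
    have h3 : (u : ℂ) * θ 1 = ((a * T.index * f : ℕ) : ℂ) * θ 1 := by rw [h1]; push_cast; ring
    exact_mod_cast mul_right_cancel₀ hθ1 h3
  have hidx : R.index = a ^ 2 * T.index := by
    have h := congrFun (eq_smul_of_unique (isClassFunction_indFun R ω) hη (hup hω hover)) 1
    rw [Pi.smul_apply, classInner_indFun R ω (isClassFunction (isCharacter_of_irr hη)), classInner_comm, ha,
      Complex.conj_natCast, indFun_apply_one, smul_eq_mul, hη1, hω1, hu] at h
    have h3 : (R.index : ℂ) * ((f : ℂ) * θ 1) = ((a ^ 2 * T.index : ℕ) : ℂ) * ((f : ℂ) * θ 1) := by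
      rw [h]; push_cast; ring
    exact_mod_cast mul_right_cancel₀ (mul_ne_zero hf0 hθ1) h3
  refine ⟨a, f, hu, hidx, hωZ, fun hcyc => ?_⟩
  -- cyclic: extend to the inertia group
  have := Fintype.ofFinite T
  have hRT : R ≤ T := le_inertia (isClassFunction (isCharacter_of_irr hω))
  let E : R.subgroupOf T ≃* R := Subgroup.subgroupOfEquivOfLe hRT
  obtain ⟨k, σ, hσ, hσω⟩ := CfsgLib.Clifford.isIrrCharacter_comp hω E.toMonoidHom E.surjective
  have hcycT : IsCyclic (T ⧸ R.subgroupOf T) := by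
    have hinj : Function.Injective (QuotientGroup.map (R.subgroupOf T) R T.subtype le_rfl) := by
      rw [← MonoidHom.ker_eq_bot_iff, eq_bot_iff]
      intro q hq
      obtain ⟨g, rfl⟩ := QuotientGroup.mk_surjective q
      exact Subgroup.mem_bot.2 ((QuotientGroup.eq_one_iff g).2 ((QuotientGroup.eq_one_iff (g : A)).1 hq))
    exact isCyclic_of_injective _ hinj
  obtain ⟨ρ, hρ, hres⟩ := exists_extension_of_cyclic hcycT hσ fun g n => by
    rw [hσω]
    refine Eq.trans (congrArg ω (Subtype.ext ?_)) (congrFun (mem_inertia.1 g.2) (E n))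
    exact (congrArg (fun z : T => (z : A)) (MulAut.conjNormal_apply g n) :)
  have hψR : (fun n : R => ρ.character ⟨(n : A), hRT n.2⟩) = ω := by
    funext n
    exact (congrArg (LinearMap.trace ℂ _) (hres (E.symm n))).trans
      ((congrFun hσω (E.symm n)).trans (congrArg ω (E.apply_symm_apply n)))
  have hne : Cfsg.classInner (fun n : R => ρ.character ⟨(n : A), hRT n.2⟩) ω ≠ 0 := by
    rw [hψR, classInner_self hω]; exact one_ne_zero
  obtain ⟨hirr, hmult⟩ := indFun_inertia_irr hω T rfl hRT ⟨k, ρ, hρ, rfl⟩ hne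
  have heq : Cfsg.indFun T ρ.character = η := by
    refine hup hω hover _ hirr ?_
    rw [classInner_indFun R ω (isClassFunction (isCharacter_of_irr hirr)), classInner_comm, hmult, Ne,
      map_eq_zero]
    exact hne
  rw [heq, hψR, classInner_self hω, ha] at hmult
  exact_mod_cast hmult

end Abstract

variable {H : Type u} [Group H] [Fintype H] {Z : Subgroup H} [hZ : Z.Normal] [Fintype Z] {θ : Z → ℂ}
  {χ : H → ℂ} {e : ℕ}

/-- The hypotheses: `θ` irreducible, invariant, fully ramified with respect to `H`. -/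
structure Ramified (Z : Subgroup H) [Z.Normal] [Fintype Z] (θ : Z → ℂ) (χ : H → ℂ) (e : ℕ) : Prop where
  irr : Cfsg.IsIrrCharacter Z θ
  irrTop : Cfsg.IsIrrCharacter H χ
  sq : e ^ 2 = Z.index
  res : ∀ z : Z, χ z = (e : ℂ) * θ z

namespace Ramified

theorem ne_zero (h : Ramified Z θ χ e) : e ≠ 0 := by
  intro h0
  have := h.sq
  rw [h0, zero_pow two_ne_zero] at this
  exact Subgroup.index_ne_zero_of_finite this.symm

theorem inv (h : Ramified Z θ χ e) (g : H) : conjFun g θ = θ := by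
  funext z
  refine mul_left_cancel₀ (Nat.cast_ne_zero.mpr h.ne_zero : (e : ℂ) ≠ 0) ?_
  rw [conjFun_apply, ← h.res, ← h.res]
  exact isClassFunction (isCharacter_of_irr h.irrTop) z g

/-- A Sylow subgroup modulo `Z` is fully ramified as well. -/
theorem sylow_ramified (h : Ramified Z θ χ e) (p : ℕ) [Fact p.Prime] (P : Subgroup H) [Fintype P] (hZP : Z ≤ P)
    (hidx : ¬ p ∣ P.index) (hcard : ∃ k, Z.relIndex P = p ^ k) :
    ∃ (η : P → ℂ) (u : ℕ), Cfsg.IsIrrCharacter P η ∧ u = p ^ e.factorization p ∧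
      (∀ z : Z, η ⟨(z : H), hZP z.2⟩ = (u : ℂ) * θ z) ∧ u ^ 2 = Z.relIndex P := by
  classical
  have hp : p.Prime := Fact.out
  have hθ1 := apply_one_ne_zero h.irr
  let E : Z.subgroupOf P ≃* Z := Subgroup.subgroupOfEquivOfLe hZP
  have hθ' : Cfsg.IsIrrCharacter (Z.subgroupOf P) (fun m => θ (E m)) :=
    CfsgLib.Clifford.isIrrCharacter_comp h.irr E.toMonoidHom E.surjective
  have hinv' : ∀ g : P, conjFun g (fun m : Z.subgroupOf P => θ (E m)) = fun m => θ (E m) := fun g =>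
    funext fun m => congrFun (h.inv g) (E m)
  have := Fintype.ofFinite (Cfsg.IrrCharacter P)
  obtain ⟨b, hb, hsum⟩ := sum_sq_mult hθ' hinv'
  obtain ⟨η, hη⟩ : ∃ η, b η ≠ 0 := by
    by_contra hh
    push Not at hh
    simp only [hh, zero_pow two_ne_zero, Finset.sum_const_zero] at hsum
    exact Subgroup.index_ne_zero_of_finite hsum.symm
  have hne : Cfsg.classInner (fun z : Z => (η : P → ℂ) ⟨(z : H), hZP z.2⟩) θ ≠ 0 := by
    rw [← classInner_comp_equiv E]
    have h1 := hb η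
    intro h0
    exact hη (Nat.cast_eq_zero.1 (h1.symm.trans h0))
  have hηZ : ∀ z : Z, (η : P → ℂ) ⟨(z : H), hZP z.2⟩ = (b η : ℂ) * θ z := by
    intro z
    have h2 := congrFun (restrict_inertia_eq h.irr P (fun g _ => h.inv g) hZP η.2 hne) z
    have h3 : Cfsg.classInner (fun z : Z => (η : P → ℂ) ⟨(z : H), hZP z.2⟩) θ = b η := by
      rw [← classInner_comp_equiv E]; exact hb η
    rw [h2, Pi.smul_apply, smul_eq_mul, h3]
  -- induce
  obtain ⟨c, hc⟩ := classInner_characters_nat (isCharacter_indFun P (isCharacter_of_irr η.2))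
    (isCharacter_of_irr h.irrTop)
  have hΨ := eq_smul_of_unique (isClassFunction_indFun P (η : P → ℂ)) h.irrTop fun φ hφ hφne => by
    refine eq_of_sq_eq_index h.irr h.inv h.irrTop h.sq h.res hφ ?_
    rw [classInner_indFun P _ (isClassFunction (isCharacter_of_irr hφ)), classInner_comm, Ne, map_eq_zero] at hφne
    obtain ⟨S, hS, hsp⟩ := exists_eq_add_of_constituent
      (CfsgLib.CharBasics.isCharacter_restrict (isCharacter_of_irr hφ) P) η.2 hφne
    have hs : (fun z : Z => φ z) = (fun z : Z => (η : P → ℂ) (Subgroup.inclusion hZP z)) +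
        fun z : Z => S (Subgroup.inclusion hZP z) := by
      funext z
      have := congrFun hsp (Subgroup.inclusion hZP z)
      simpa using this
    rw [hs]
    exact classInner_add_ne_zero_left (CfsgLib.CharBasics.isCharacter_comp (isCharacter_of_irr η.2) _)
      (CfsgLib.CharBasics.isCharacter_comp hS _) (isCharacter_of_irr h.irr) hne
  have h1 := congrFun hΨ 1
  rw [Pi.smul_apply, hc, indFun_apply_one, smul_eq_mul,
    show (η : P → ℂ) 1 = (b η : ℂ) * θ 1 from hηZ 1,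
    show χ 1 = (e : ℂ) * θ 1 from h.res 1] at h1
  have hdvd : e ∣ P.index * b η := by
    have h3 : ((P.index * b η : ℕ) : ℂ) * θ 1 = ((c * e : ℕ) : ℂ) * θ 1 := by push_cast; linear_combination h1
    exact Dvd.intro_left c (Nat.cast_injective (mul_right_cancel₀ hθ1 h3)).symm
  have hub : p ^ e.factorization p ∣ b η :=
    ((Nat.Coprime.pow_left _ (hp.coprime_iff_not_dvd.2 hidx)).dvd_mul_left).1
      ((Nat.ordProj_dvd e p).trans hdvd)
  have hrel : Z.relIndex P = (p ^ e.factorization p) ^ 2 := by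
    obtain ⟨k, hk⟩ := hcard
    have hm := Subgroup.relIndex_mul_index hZP
    have h4 := congrArg (fun n => n.factorization p) hm
    simp only [hk, ← h.sq, Nat.factorization_mul (pow_ne_zero k hp.ne_zero) Subgroup.index_ne_zero_of_finite,
      Nat.factorization_pow, Finsupp.coe_add, Pi.add_apply, Finsupp.coe_smul, Pi.smul_apply, smul_eq_mul,
      hp.factorization_self, mul_one, Nat.factorization_eq_zero_of_not_dvd hidx, add_zero] at h4
    rw [hk, h4, ← pow_mul, mul_comm]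
  have hle : b η ^ 2 ≤ Z.relIndex P := by
    show _ ≤ (Z.subgroupOf P).index
    rw [← hsum]
    exact Finset.single_le_sum (f := fun φ => b φ ^ 2) (fun _ _ => Nat.zero_le _) (Finset.mem_univ η)
  have hu : b η = p ^ e.factorization p := by
    refine le_antisymm ?_ (Nat.le_of_dvd (Nat.pos_of_ne_zero hη) hub)
    rw [hrel] at hle
    exact (Nat.pow_le_pow_iff_left two_ne_zero).1 hle
  exact ⟨η, b η, η.2, hu, hηZ, by rw [hrel, hu]⟩

/-- The facts about the orbit, in the ambient group. -/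
theorem orbit (h : Ramified Z θ χ e) {K : Subgroup H} [hKn : K.Normal] (p : ℕ) [Fact p.Prime] {P R : Subgroup H}
    [Fintype P] [Fintype R] (hZR : Z ≤ R) (hRP : R ≤ P) (hR : R = P ⊓ K)
    (hidx : ¬ p ∣ P.index) (hcard : ∃ k, Z.relIndex P = p ^ k)
    (hcase : IsCyclic (P.map (QuotientGroup.mk' K)) ∨ ∀ f : ℕ, (∀ w : R → ℂ, Cfsg.IsIrrCharacter R w →
      Cfsg.classInner (fun z : Z => w ⟨(z : H), hZR z.2⟩) θ ≠ 0 → w 1 = (f : ℂ) * θ 1) → f * K.index ∣ e) :
    ∀ w : R → ℂ, Cfsg.IsIrrCharacter R w → Cfsg.classInner (fun z : Z => w ⟨(z : H), hZR z.2⟩) θ ≠ 0 →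
      (∀ x ∈ P, (∀ r r' : R, (r' : H) = x * r * x⁻¹ → w r' = w r) → x ∈ R) ∧
      ∀ w' : R → ℂ, Cfsg.IsIrrCharacter R w' → Cfsg.classInner (fun z : Z => w' ⟨(z : H), hZR z.2⟩) θ ≠ 0 →
        ∃ x ∈ P, ∀ r r' : R, (r' : H) = x * r * x⁻¹ → w' r = w r' := by
  classical
  intro w hw hover
  have hp : p.Prime := Fact.out
  have hZP : Z ≤ P := hZR.trans hRP
  obtain ⟨η, u, hη, hu, hηZ, hu2⟩ := h.sylow_ramified p P hZP hidx hcard
  haveI hRn : (R.subgroupOf P).Normal := by
    refine ⟨fun n hn g => ?_⟩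
    rw [Subgroup.mem_subgroupOf] at hn ⊢
    subst hR
    exact ⟨(g * n * g⁻¹).2, by simpa using hKn.conj_mem (n : H) hn.2 g⟩
  have := Fintype.ofFinite (Cfsg.IrrCharacter P)
  let EZ : Z.subgroupOf P ≃* Z := Subgroup.subgroupOfEquivOfLe hZP
  let ER : R.subgroupOf P ≃* R := Subgroup.subgroupOfEquivOfLe hRP
  have hθ' : Cfsg.IsIrrCharacter (Z.subgroupOf P) (fun m => θ (EZ m)) :=
    CfsgLib.Clifford.isIrrCharacter_comp h.irr EZ.toMonoidHom EZ.surjective
  have hinv' : ∀ g : P, conjFun g (fun m : Z.subgroupOf P => θ (EZ m)) = fun m => θ (EZ m) := fun g =>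
    funext fun m => congrFun (h.inv g) (EZ m)
  have hηZ' : ∀ z : Z.subgroupOf P, η z = (u : ℂ) * θ (EZ z) := fun z => hηZ (EZ z)
  have huniq : ∀ φ : P → ℂ, Cfsg.IsIrrCharacter P φ →
      Cfsg.classInner (fun z : Z.subgroupOf P => φ z) (fun m => θ (EZ m)) ≠ 0 → φ = η :=
    fun φ hφ hne => eq_of_sq_eq_index hθ' hinv' hη hu2 hηZ' hφ hne
  have hle : Z.subgroupOf P ≤ R.subgroupOf P := fun z hz => hZR hz
  have key : ∀ v : R → ℂ, Cfsg.IsIrrCharacter R v →
      Cfsg.classInner (fun z : Z => v ⟨(z : H), hZR z.2⟩) θ ≠ 0 →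
      Cfsg.IsIrrCharacter (R.subgroupOf P) (fun m => v (ER m)) ∧
      Cfsg.classInner (fun z : Z.subgroupOf P => (fun m : R.subgroupOf P => v (ER m)) ⟨(z : P), hle z.2⟩)
        (fun m => θ (EZ m)) ≠ 0 := by
    intro v hv hv1
    refine ⟨CfsgLib.Clifford.isIrrCharacter_comp hv ER.toMonoidHom ER.surjective, ?_⟩
    have h1 := classInner_comp_equiv EZ (fun z : Z => v ⟨(z : H), hZR z.2⟩) θ
    rw [← h1] at hv1
    exact hv1
  obtain ⟨⟨a, f, huaf, hidxR, hfZ, hcyc⟩, hconj⟩ :=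
    orbit_facts hθ' hinv' hle hη hηZ' huniq (key w hw hover).1 (key w hw hover).2
  -- all characters over `θ` have the same degree
  have hdeg : ∀ w' : R → ℂ, Cfsg.IsIrrCharacter R w' →
      Cfsg.classInner (fun z : Z => w' ⟨(z : H), hZR z.2⟩) θ ≠ 0 → w' 1 = (f : ℂ) * θ 1 := by
    intro w' hw' hover'
    obtain ⟨x, hx⟩ := hconj _ (key w' hw' hover').1 (key w' hw' hover').2
    have h1 := congrFun hx 1
    simp only [conjFun_apply, map_one] at h1
    refine h1.trans (Eq.trans (congrArg w ?_) ((hfZ 1).trans (by rw [map_one])))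
    exact Subtype.ext (by simp [ER])
  have ha : a = 1 := by
    rcases hcase with hc | hc
    · refine hcyc ?_
      let g : P →* P.map (QuotientGroup.mk' K) := (QuotientGroup.mk' K).subgroupMap P
      have hker : g.ker = R.subgroupOf P := by
        ext x
        rw [MonoidHom.mem_ker, Subgroup.mem_subgroupOf, hR, Subgroup.mem_inf]
        exact ⟨fun hx => ⟨x.2, (QuotientGroup.eq_one_iff (x : H)).1 (congrArg Subtype.val hx)⟩,
          fun hx => Subtype.ext ((QuotientGroup.eq_one_iff (x : H)).2 hx.2)⟩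
      haveI := hc
      have := isCyclic_of_injective _ (QuotientGroup.kerLift_injective g)
      exact (QuotientGroup.quotientMulEquivOfEq hker).isCyclic.1 this
    · have hd := hc f hdeg
      have hRK : R.relIndex P ∣ K.index := by
        rw [hR, inf_comm, Subgroup.inf_relIndex_right]
        exact Subgroup.relIndex_dvd_index_of_normal K P
      have hdvd : f * (a ^ 2 * (inertia (G := P) (fun m : R.subgroupOf P => w (ER m))).index) ∣ e :=
        dvd_trans (Nat.mul_dvd_mul_left f (hidxR ▸ hRK)) hd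
      set t := (inertia (G := P) (fun m : R.subgroupOf P => w (ER m))).index with ht
      have hu0 : u ≠ 0 := by rw [hu]; exact pow_ne_zero _ hp.ne_zero
      have hpow : ∃ j, f * (a ^ 2 * t) = p ^ j := by
        have h2 : f * (a ^ 2 * t) ∣ u ^ 2 := by
          rw [huaf]
          exact ⟨f * t, by ring⟩
        rw [hu, ← pow_mul] at h2
        obtain ⟨j, -, hj⟩ := (Nat.dvd_prime_pow hp).1 h2
        exact ⟨j, hj⟩
      obtain ⟨j, hj⟩ := hpow
      rw [hj] at hdvd
      have hjle : f * (a ^ 2 * t) ≤ u := by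
        rw [hj, hu]
        exact Nat.pow_le_pow_right hp.pos ((hp.pow_dvd_iff_le_factorization h.ne_zero).1 hdvd)
      rw [huaf] at hjle hu0
      have ha0 : a ≠ 0 := fun h0 => hu0 (by rw [h0]; simp)
      have ht0 : 0 < t * f := Nat.pos_of_ne_zero fun h0 => hu0 (by rw [mul_assoc, h0, mul_zero])
      have : a * (a * (t * f)) ≤ 1 * (a * (t * f)) := by
        calc a * (a * (t * f)) = f * (a ^ 2 * t) := by ring
          _ ≤ a * t * f := hjle
          _ = _ := by ring
      have := Nat.le_of_mul_le_mul_right this (Nat.mul_pos (Nat.pos_of_ne_zero ha0) ht0)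
      omega
  refine ⟨fun x hx hfix => ?_, fun w' hw' hover' => ?_⟩
  · rw [ha, one_pow, one_mul] at hidxR
    have hT : R.subgroupOf P = inertia (G := P) (fun m : R.subgroupOf P => w (ER m)) := by
      refine Subgroup.eq_of_le_of_card_ge (le_inertia (isClassFunction (isCharacter_of_irr (key w hw hover).1))) ?_
      refine le_of_eq (mul_right_cancel₀ (Subgroup.index_ne_zero_of_finite (H := R.subgroupOf P)) ?_)
      rw [Subgroup.card_mul_index, hidxR, Subgroup.card_mul_index]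
    have hmem : (⟨x, hx⟩ : P) ∈ inertia (G := P) (fun m : R.subgroupOf P => w (ER m)) := by
      rw [mem_inertia]
      funext m
      exact hfix (ER m) _ rfl
    rw [← hT, Subgroup.mem_subgroupOf] at hmem
    exact hmem
  · obtain ⟨x, hx⟩ := hconj _ (key w' hw' hover').1 (key w' hw' hover').2
    refine ⟨x, x.2, fun r r' hr => ?_⟩
    have h1 := congrFun hx (ER.symm r)
    simp only [conjFun_apply, MulEquiv.apply_symm_apply] at h1
    exact h1.trans (congrArg w (Subtype.ext hr.symm))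

/-- The `p`-complement in `H ⧸ K`. -/
theorem exists_complement (h : Ramified Z θ χ e) {K : Subgroup H} [hKn : K.Normal] (hZK : Z ≤ K) (p : ℕ)
    [Fact p.Prime]
    (hcase : (∀ Q : Sylow p (H ⧸ K), IsCyclic Q) ∨ ∀ (R : Subgroup H) [Fintype R] (hZR : Z ≤ R), R ≤ K →
      ∀ f : ℕ, (∀ w : R → ℂ, Cfsg.IsIrrCharacter R w →
        Cfsg.classInner (fun z : Z => w ⟨(z : H), hZR z.2⟩) θ ≠ 0 → w 1 = (f : ℂ) * θ 1) → f * K.index ∣ e)
    (Q : Sylow p (H ⧸ K)) : ∃ M : Subgroup (H ⧸ K), M.IsComplement' (Q : Subgroup (H ⧸ K)) := by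
  classical
  have hp : p.Prime := Fact.out
  set π := QuotientGroup.mk' K with hπ
  set πZ := QuotientGroup.mk' Z with hπZ
  haveI : (K.map πZ).Normal := hKn.map _ (QuotientGroup.mk'_surjective Z)
  obtain ⟨R₀⟩ : Nonempty (Sylow p (K.map πZ)) := inferInstance
  obtain ⟨P₀, hP₀⟩ := (R₀.2.map (K.map πZ).subtype).exists_le_sylow
  set P : Subgroup H := (P₀ : Subgroup (H ⧸ Z)).comap πZ with hPdef
  set R : Subgroup H := ((R₀ : Subgroup (K.map πZ)).map (K.map πZ).subtype).comap πZ with hRdef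
  have hZker : ∀ z ∈ Z, πZ z = 1 := fun z hz => (QuotientGroup.eq_one_iff z).2 hz
  have hZR : Z ≤ R := fun z hz => by rw [hRdef, Subgroup.mem_comap, hZker z hz]; exact Subgroup.one_mem _
  have hRP : R ≤ P := Subgroup.comap_mono hP₀
  have hKcomap : (K.map πZ).comap πZ = K :=
    Subgroup.comap_map_eq_self (by rw [hπZ, QuotientGroup.ker_mk']; exact hZK)
  have hRK : R ≤ K := by
    rw [← hKcomap]
    exact Subgroup.comap_mono (Subgroup.map_subtype_le _)
  have hReq : R = P ⊓ K := by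
    refine le_antisymm (le_inf hRP hRK) fun g hg => ?_
    have hgK : πZ g ∈ K.map πZ := Subgroup.mem_map_of_mem _ hg.2
    have hmax : ((P₀ : Subgroup (H ⧸ Z)).subgroupOf (K.map πZ)) = (R₀ : Subgroup (K.map πZ)) :=
      R₀.3 (P₀.2.comap_subtype) fun y hy => hP₀ (Subgroup.mem_map_of_mem _ hy)
    have hmem : (⟨πZ g, hgK⟩ : K.map πZ) ∈ (R₀ : Subgroup (K.map πZ)) := by
      rw [← hmax]; exact hg.1
    exact ⟨_, hmem, rfl⟩
  have hidx : ¬ p ∣ P.index := by
    rw [hPdef, Subgroup.index_comap_of_surjective _ (QuotientGroup.mk'_surjective Z)]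
    exact Sylow.not_dvd_index P₀
  have hrel : Z.relIndex P = Nat.card (P₀ : Subgroup (H ⧸ Z)) := by
    rw [← Subgroup.relIndex_bot_left, ← Subgroup.map_comap_eq_self_of_surjective
      (QuotientGroup.mk'_surjective Z) (P₀ : Subgroup (H ⧸ Z)), ← hπZ, ← hPdef, ← Subgroup.relIndex_comap,
      MonoidHom.comap_bot, hπZ, QuotientGroup.ker_mk']
  have hcard : ∃ k, Z.relIndex P = p ^ k := by
    obtain ⟨k, hk⟩ := IsPGroup.iff_card.1 P₀.2
    exact ⟨k, hrel.trans hk⟩
  haveI := Fintype.ofFinite P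
  haveI := Fintype.ofFinite R
  -- the image of `P`
  have hPp : IsPGroup p (P.map π) := by
    intro y
    obtain ⟨g, hg, hy⟩ := Subgroup.mem_map.1 y.2
    obtain ⟨k, hk⟩ := P₀.2 ⟨πZ g, hg⟩
    refine ⟨k, Subtype.ext ?_⟩
    have h1 : πZ (g ^ p ^ k) = 1 := by rw [map_pow]; exact congrArg Subtype.val hk
    rw [Subgroup.coe_pow, ← hy, ← map_pow, Subgroup.coe_one]
    exact (QuotientGroup.eq_one_iff _).2 (hZK ((QuotientGroup.eq_one_iff _).1 h1))
  have hcase' : IsCyclic (P.map π) ∨ ∀ f : ℕ, (∀ w : R → ℂ, Cfsg.IsIrrCharacter R w →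
      Cfsg.classInner (fun z : Z => w ⟨(z : H), hZR z.2⟩) θ ≠ 0 → w 1 = (f : ℂ) * θ 1) → f * K.index ∣ e := by
    rcases hcase with hc | hc
    · obtain ⟨Q', hQ'⟩ := hPp.exists_le_sylow
      haveI := hc Q'
      exact Or.inl (isCyclic_of_injective (Subgroup.inclusion hQ') (Subgroup.inclusion_injective hQ'))
    · exact Or.inr (hc R hZR hRK)
  have horb := h.orbit p hZR hRP hReq hidx hcard hcase'
  -- a character of `R` over `θ`
  obtain ⟨w, hw, hover⟩ : ∃ w : R → ℂ, Cfsg.IsIrrCharacter R w ∧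
      Cfsg.classInner (fun z : Z => w ⟨(z : H), hZR z.2⟩) θ ≠ 0 := by
    let E : Z.subgroupOf R ≃* Z := Subgroup.subgroupOfEquivOfLe hZR
    have hθ' : Cfsg.IsIrrCharacter (Z.subgroupOf R) (fun m => θ (E m)) :=
      CfsgLib.Clifford.isIrrCharacter_comp h.irr E.toMonoidHom E.surjective
    have := Fintype.ofFinite (Cfsg.IrrCharacter R)
    obtain ⟨b, hb, hsum⟩ := sum_sq_mult hθ' fun g : R => funext fun m => congrFun (h.inv g) (E m)
    by_contra hh
    push Not at hh
    refine Subgroup.index_ne_zero_of_finite (H := Z.subgroupOf R) ?_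
    rw [← hsum]
    refine Finset.sum_eq_zero fun φ _ => ?_
    have h1 := hb φ
    have h2 := classInner_comp_equiv E (fun z : Z => (φ : R → ℂ) ⟨(z : H), hZR z.2⟩) θ
    rw [hh _ φ.2] at h2
    rw [Nat.cast_eq_zero.1 (h1.symm.trans h2), zero_pow two_ne_zero]
  -- the normalizer
  set N : Subgroup H := (Subgroup.normalizer
    (((R₀ : Subgroup (K.map πZ)).map (K.map πZ).subtype : Subgroup (H ⧸ Z)) : Set (H ⧸ Z))).comap πZ with hNdef
  have hNR : ∀ g ∈ N, ∀ r : H, (r ∈ R ↔ g * r * g⁻¹ ∈ R) := by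
    intro g hg r
    have := Subgroup.mem_normalizer_iff.1 hg (πZ r)
    rw [hRdef, Subgroup.mem_comap, Subgroup.mem_comap, map_mul, map_mul, map_inv]
    exact this
  have hPN : P ≤ N := by
    intro g hg
    rw [hNdef, Subgroup.mem_comap, Subgroup.mem_normalizer_iff]
    intro y
    obtain ⟨y, rfl⟩ := QuotientGroup.mk'_surjective Z y
    have key : ∀ a ∈ P, ∀ r : H, r ∈ R → a * r * a⁻¹ ∈ R := by
      intro a ha r hr
      rw [hReq] at hr ⊢
      exact ⟨P.mul_mem (P.mul_mem ha hr.1) (P.inv_mem ha), hKn.conj_mem r hr.2 a⟩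
    have e1 : y ∈ R ↔ g * y * g⁻¹ ∈ R :=
      ⟨key g hg y, fun hh => by simpa [mul_assoc] using key g⁻¹ (P.inv_mem hg) _ hh⟩
    rw [hRdef, Subgroup.mem_comap, Subgroup.mem_comap, map_mul, map_mul, map_inv] at e1
    exact e1
  let cg : (g : H) → g ∈ N → (R →* R) := fun g hg =>
    { toFun := fun r => ⟨g * r * g⁻¹, (hNR g hg r).1 r.2⟩
      map_one' := Subtype.ext (by simp)
      map_mul' := fun a b => Subtype.ext (by simp [mul_assoc]) }
  have hov : ∀ (g : H) (hg : g ∈ N), Cfsg.IsIrrCharacter R (fun r => w (cg g hg r)) ∧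
      Cfsg.classInner (fun z : Z => (fun r => w (cg g hg r)) ⟨(z : H), hZR z.2⟩) θ ≠ 0 := by
    intro g hg
    refine ⟨CfsgLib.Clifford.isIrrCharacter_comp hw (cg g hg)
      (Finite.surjective_of_injective fun a b hab => Subtype.ext ?_), ?_⟩
    · exact mul_left_cancel (mul_right_cancel (congrArg Subtype.val hab :))
    · have h1 := classInner_conjFun g (fun z : Z => w ⟨(z : H), hZR z.2⟩) θ
      rw [h.inv g] at h1
      rw [← h1] at hover
      exact hover
  let S : Subgroup H :=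
    { carrier := {g | g ∈ N ∧ ∀ r r' : R, (r' : H) = g * r * g⁻¹ → w r' = w r}
      one_mem' := ⟨N.one_mem, fun r r' hr => congrArg w (Subtype.ext (by simpa using hr))⟩
      mul_mem' := fun {a b} ha hb => ⟨N.mul_mem ha.1 hb.1, fun r r' hr => by
        rw [ha.2 ⟨b * r * b⁻¹, (hNR b hb.1 r).1 r.2⟩ r' (by rw [hr]; simp [mul_assoc]), hb.2 r _ rfl]⟩
      inv_mem' := fun {a} ha => ⟨N.inv_mem ha.1, fun r r' hr => (ha.2 r' r (by rw [hr]; simp [mul_assoc])).symm⟩ }
  -- `N` is `S P`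
  have hSP : ∀ g ∈ N, ∃ s ∈ S, ∃ x ∈ P, g = s * x := by
    intro g hg
    obtain ⟨x, hx, hrel'⟩ := (horb w hw hover).2 _ (hov g hg).1 (hov g hg).2
    refine ⟨g * x⁻¹, ⟨N.mul_mem hg (N.inv_mem (hPN hx)), fun r r' hr => ?_⟩, x, hx, by simp⟩
    have hr1 : x⁻¹ * r * x ∈ R := by simpa using (hNR x⁻¹ (N.inv_mem (hPN hx)) r).1 r.2
    have h1 := hrel' ⟨_, hr1⟩ r (by simp [mul_assoc])
    rw [← h1]
    exact congrArg w (Subtype.ext (by rw [hr]; simp [cg, mul_assoc]))
  -- Frattini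
  have hNK : ∀ y : H ⧸ K, ∃ g ∈ N, π g = y := by
    intro y
    obtain ⟨g, rfl⟩ := QuotientGroup.mk'_surjective K y
    have htop := Sylow.normalizer_sup_eq_top R₀
    have hg : πZ g ∈ (↑(Subgroup.normalizer
        (((R₀ : Subgroup (K.map πZ)).map (K.map πZ).subtype : Subgroup (H ⧸ Z)) : Set (H ⧸ Z)) ⊔ K.map πZ) :
        Set (H ⧸ Z)) := by
      rw [htop]; trivial
    rw [Subgroup.mul_normal] at hg
    obtain ⟨a, ha, b, ⟨k, hk, rfl⟩, hab⟩ := hg
    refine ⟨g * k⁻¹, ?_, ?_⟩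
    · rw [hNdef, Subgroup.mem_comap, map_mul, map_inv, ← hab]
      simpa using ha
    · rw [map_mul, map_inv, hπ]
      simp [(QuotientGroup.eq_one_iff k).2 hk]
  -- `p` does not divide the order of the image of `S`
  have hMp : ¬ p ∣ Nat.card (S.map π) := by
    intro hd
    obtain ⟨y, hy⟩ := exists_prime_orderOf_dvd_card' p hd
    obtain ⟨s, hs, hsy⟩ := Subgroup.mem_map.1 y.2
    set m := ordCompl[p] (orderOf (πZ s)) with hm
    have hpp : ∀ q : H ⧸ Z, q ∈ Subgroup.zpowers ((πZ s) ^ m) → ∃ k, q ^ p ^ k = 1 := by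
      intro q hq
      obtain ⟨i, rfl⟩ := Subgroup.mem_zpowers_iff.1 hq
      refine ⟨(orderOf (πZ s)).factorization p, ?_⟩
      rw [← zpow_natCast _ (p ^ _), ← zpow_mul, mul_comm, zpow_mul, zpow_natCast, ← pow_mul, mul_comm m,
        Nat.ordProj_mul_ordCompl_eq_self, pow_orderOf_eq_one, one_zpow]
    set Nb := Subgroup.normalizer
      (((R₀ : Subgroup (K.map πZ)).map (K.map πZ).subtype : Subgroup (H ⧸ Z)) : Set (H ⧸ Z)) with hNb
    have hsN : (πZ s) ^ m ∈ Nb := Nb.pow_mem hs.1 m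
    have hPNb : (P₀ : Subgroup (H ⧸ Z)) ≤ Nb := fun q hq => by
      obtain ⟨g, rfl⟩ := QuotientGroup.mk'_surjective Z q
      exact hPN hq
    have hyp : IsPGroup p (Subgroup.zpowers (⟨_, hsN⟩ : Nb)) := fun q => by
      obtain ⟨i, hi⟩ := Subgroup.mem_zpowers_iff.1 q.2
      obtain ⟨k, hk⟩ := hpp (((πZ s) ^ m) ^ i) ⟨i, rfl⟩
      refine ⟨k, Subtype.ext (Subtype.ext ?_)⟩
      rw [Subgroup.coe_pow, Subgroup.coe_pow, ← hi]
      simpa using hk
    obtain ⟨Q₁, hQ₁⟩ := hyp.exists_le_sylow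
    obtain ⟨n, hn⟩ := MulAction.exists_smul_eq Nb Q₁ (P₀.subtype hPNb)
    have hmem : n * (⟨_, hsN⟩ : Nb) * n⁻¹ ∈ ((P₀.subtype hPNb : Sylow p Nb) : Subgroup Nb) := by
      rw [← hn]
      exact Subgroup.smul_mem_pointwise_smul _ (MulAut.conj n) _ (hQ₁ (Subgroup.mem_zpowers _))
    rw [Sylow.coe_subtype, Subgroup.mem_subgroupOf, Subgroup.coe_mul, Subgroup.coe_mul, Subgroup.coe_inv] at hmem
    obtain ⟨g, hg⟩ := QuotientGroup.mk'_surjective Z (n : H ⧸ Z)
    have hgN : g ∈ N := by rw [hNdef, Subgroup.mem_comap, hπZ, hg]; exact n.2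
    have hxP : g * s ^ m * g⁻¹ ∈ P := by
      rw [hPdef, Subgroup.mem_comap, map_mul, map_mul, map_inv, map_pow]
      rw [show πZ g = (n : H ⧸ Z) from hg]
      exact hmem
    have hsm : s ^ m ∈ S := S.pow_mem hs m
    have hgi : g⁻¹ ∈ N := N.inv_mem hgN
    have hxR : g * s ^ m * g⁻¹ ∈ R := by
      refine (horb _ (hov g⁻¹ hgi).1 (hov g⁻¹ hgi).2).1 _ hxP fun r r' hr => ?_
      refine hsm.2 (cg g⁻¹ hgi r) _ ?_
      show g⁻¹ * (r' : H) * g⁻¹⁻¹ = s ^ m * (g⁻¹ * r * g⁻¹⁻¹) * (s ^ m)⁻¹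
      rw [hr]; group
    have hsR : s ^ m ∈ R := (hNR g hgN _).2 hxR
    have h1 : (y : H ⧸ K) ^ m = 1 := by
      rw [← hsy, ← map_pow]
      exact (QuotientGroup.eq_one_iff _).2 (hRK hsR)
    have h2 : p ∣ m := hy ▸ orderOf_dvd_of_pow_eq_one (Subtype.ext (by simpa using h1))
    exact Nat.not_dvd_ordCompl hp (orderOf_pos _).ne' h2
  -- conclusion
  have hcop : ∀ T : Subgroup (H ⧸ K), IsPGroup p T → Nat.Coprime (Nat.card (S.map π)) (Nat.card T) := by
    intro T hT
    obtain ⟨k, hk⟩ := IsPGroup.iff_card.1 hT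
    rw [hk]
    exact (Nat.Coprime.pow_left k (hp.coprime_iff_not_dvd.2 hMp)).symm
  have hge : Nat.card (H ⧸ K) ≤ Nat.card (S.map π) * Nat.card (P.map π) := by
    rw [← Nat.card_prod]
    refine Nat.card_le_card_of_surjective (fun z => (z.1 : H ⧸ K) * (z.2 : H ⧸ K)) fun y => ?_
    obtain ⟨g, hg, rfl⟩ := hNK y
    obtain ⟨s, hs, x, hx, rfl⟩ := hSP g hg
    exact ⟨(⟨_, Subgroup.mem_map_of_mem π hs⟩, ⟨_, Subgroup.mem_map_of_mem π hx⟩), (map_mul π s x).symm⟩
  obtain ⟨Q', hQ'⟩ := hPp.exists_le_sylow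
  have hPQ : Nat.card (P.map π) ≤ Nat.card (Q : Subgroup (H ⧸ K)) := by
    refine le_of_le_of_eq (Subgroup.card_le_of_le hQ') ?_
    rw [Sylow.card_eq_multiplicity, Sylow.card_eq_multiplicity]
  refine ⟨S.map π, Subgroup.isComplement'_of_coprime ?_ (hcop _ Q.2)⟩
  have hdvd : Nat.card (S.map π) * Nat.card (Q : Subgroup (H ⧸ K)) ∣ Nat.card (H ⧸ K) :=
    (hcop _ Q.2).mul_dvd_of_dvd_of_dvd (Subgroup.card_subgroup_dvd_card _) (Subgroup.card_subgroup_dvd_card _)
  refine le_antisymm (Nat.le_of_dvd Nat.card_pos hdvd) (hge.trans (Nat.mul_le_mul_left _ hPQ))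

end Ramified

end CfsgLib.Clifford.RamifiedSection
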