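import Mathlib
import Cfsg.Agent.Clifford.ExtCriteria
import Cfsg.Agent.Clifford.Correspondence
import Cfsg.Agent.BrauerInd.Galois
import Cfsg.Agent.S0161
import Cfsg.Agent.CharBasics.Extra

/-!
Characters fixed by a Galois automorphism inverting the roots of unity of odd order, over a normal
subgroup of odd index.
-/

set_option autoImplicit false

namespace CfsgLib.Clifford

open CfsgLib.CharBasics

universe u

/-- The exponent is prime to the order and inverts every element of odd order. -/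
def InvertsOdd (G : Type u) [Group G] (k : ℕ) : Prop :=
  k.Coprime (Nat.card G) ∧ ∀ g : G, Odd (orderOf g) → g ^ k = g⁻¹

theorem InvertsOdd.subgroup {G : Type u} [Group G] {k : ℕ} (h : InvertsOdd G k) (T : Subgroup G) :
    InvertsOdd T k :=
  ⟨h.1.coprime_dvd_right (Subgroup.card_subgroup_dvd_card T), fun g hg => Subtype.ext (by
    rw [Subgroup.coe_pow, Subgroup.coe_inv]
    exact h.2 g (by rwa [Subgroup.orderOf_coe]))⟩

variable {G : Type u} [Group G] [Finite G] {N : Subgroup G} [hN : N.Normal] {k : ℕ}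

theorem mk_pow_eq_inv (hk : InvertsOdd G k) (hodd : Odd N.index) (g : G) :
    ((g ^ k : G) : G ⧸ N) = (g : G ⧸ N)⁻¹ := by
  obtain ⟨a, c, hc, hac⟩ := Nat.exists_eq_two_pow_mul_odd (orderOf_pos g).ne'
  have h1 : Odd (orderOf (g ^ 2 ^ a)) := by
    rw [orderOf_pow' g (pow_ne_zero a two_ne_zero), hac, Nat.gcd_eq_right (dvd_mul_right _ _),
      Nat.mul_div_cancel_left _ (pow_pos two_pos a)]
    exact hc
  have h2 : (g : G ⧸ N) ^ (2 ^ a * (k + 1)) = 1 := by
    rw [← QuotientGroup.mk_pow, pow_mul, pow_succ, hk.2 _ h1, inv_mul_cancel, QuotientGroup.mk_one]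
  have h3 : (g : G ⧸ N) ^ N.index = 1 := by
    rw [Subgroup.index]
    exact pow_card_eq_one'
  have h4 : (g : G ⧸ N) ^ Nat.gcd (2 ^ a * (k + 1)) N.index = 1 := pow_gcd_eq_one.mpr ⟨h2, h3⟩
  rw [Nat.Coprime.gcd_mul_left_cancel (k + 1) ((Nat.coprime_two_left.mpr hodd).pow_left a)] at h4
  have h5 : (g : G ⧸ N) ^ (k + 1) = 1 := by
    obtain ⟨j, hj⟩ := Nat.gcd_dvd_left (k + 1) N.index
    rw [hj, pow_mul, h4, one_pow]
  rw [pow_succ] at h5
  rw [QuotientGroup.mk_pow]
  exact eq_inv_of_mul_eq_one_left h5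

/-- Some extension is fixed as soon as one exists. -/
theorem exists_fixed_of_extension (hk : InvertsOdd G k) (hodd : Odd N.index) {θ : N → ℂ}
    (hθ : Cfsg.IsIrrCharacter N θ) (hfix : ∀ n : N, θ (n ^ k) = θ n) {χ : G → ℂ}
    (hχ : Cfsg.IsIrrCharacter G χ) (hext : ∀ n : N, χ n = θ n) :
    ∃ η : G → ℂ, Cfsg.IsIrrCharacter G η ∧ (∀ n : N, η n = θ n) ∧ ∀ g, η (g ^ k) = η g := by
  obtain ⟨f, hf, hfeq⟩ := extension_eq_linear_mul hθ hχ hext (χ' := fun g => χ (g ^ k))
    (CfsgLib.BrauerInd.isIrr_pow hk.1 hχ) fun n => by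
      rw [← Subgroup.coe_pow, hext, hfix]
  obtain ⟨j, hj⟩ := hodd
  let μ : G →* ℂ := (powMonoidHom (j + 1)).comp f
  have hμ : ∀ g, μ g = f g ^ (j + 1) := fun g => rfl
  have hμN : ∀ n : N, μ n = 1 := fun n => by rw [hμ, hf, one_pow]
  have hμ2 : ∀ g, μ g * μ g = f g := fun g => by
    rw [hμ, ← pow_add, show j + 1 + (j + 1) = N.index + 1 by omega, pow_succ, hom_pow_index_eq_one f hf, one_mul]
  have hμk : ∀ g, μ (g ^ k) * μ g = 1 := fun g => by
    have hm : g ^ k * g ∈ N := by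
      rw [← QuotientGroup.eq_one_iff, QuotientGroup.mk_mul, mk_pow_eq_inv hk ⟨j, hj⟩, inv_mul_cancel]
    rw [← map_mul]
    exact hμN ⟨_, hm⟩
  refine ⟨fun g => μ g * χ g, isIrrCharacter_linear_mul hχ μ, fun n => ?_, fun g => ?_⟩
  · simp only [hμN, hext, one_mul]
  · have h1 : χ (g ^ k) = f g * χ g := congrFun hfeq g
    simp only
    rw [h1, ← hμ2]
    linear_combination (μ g * χ g) * hμk g

/-- A fixed character over `θ` is the fixed extension. -/
theorem fixed_eq_of_fixed_extension [Fintype G] [Fintype N] (hk : InvertsOdd G k) (hodd : Odd N.index) {θ : N → ℂ}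
    (hθ : Cfsg.IsIrrCharacter N θ) {χ : G → ℂ} (hχ : Cfsg.IsIrrCharacter G χ)
    (hext : ∀ n : N, χ n = θ n) (hχfix : ∀ g, χ (g ^ k) = χ g) {χ' : G → ℂ}
    (hχ' : Cfsg.IsIrrCharacter G χ') (hover : Cfsg.classInner (fun n : N => χ' n) θ ≠ 0)
    (hfix' : ∀ g, χ' (g ^ k) = χ' g) : χ' = χ := by
  classical
  have h1θ : ((fun _ => 1) * θ : N → ℂ) = θ := funext fun n => one_mul _
  have hgal := gallagher_bijOn (G := G) (φ := fun _ : N => (1 : ℂ)) CfsgLib.CharBasics.isIrrCharacter_one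
    (fun g => rfl) (h1θ.symm ▸ hθ) (isCharacter_of_irr hχ) hext
  rw [h1θ] at hgal
  have hmem : χ' ∈ {ψ : G → ℂ | Cfsg.IsIrrCharacter G ψ ∧ Cfsg.classInner (Cfsg.indFun N θ) ψ ≠ 0} := by
    refine ⟨hχ', ?_⟩
    rw [classInner_indFun N θ (CfsgLib.CharBasics.isClassFunction (isCharacter_of_irr hχ')), classInner_comm, Ne, map_eq_zero]
    exact hover
  obtain ⟨β, ⟨hβ, hβ1⟩, hβχ⟩ := hgal.surjOn hmem
  simp only at hβχ
  have hker := (mem_over_one_iff hβ).mp hβ1
  have hβ' : Cfsg.IsIrrCharacter G (fun g => β (g ^ k)) := CfsgLib.BrauerInd.isIrr_pow hk.1 hβ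
  have hβ'1 : Cfsg.classInner (Cfsg.indFun N fun _ => 1) (fun g => β (g ^ k)) ≠ 0 :=
    (mem_over_one_iff hβ').mpr fun n hn => by rw [hker _ (N.pow_mem hn k), one_pow]
  have heq : (fun g => β (g ^ k)) = β := by
    refine hgal.injOn ⟨hβ', hβ'1⟩ ⟨hβ, hβ1⟩ ?_
    funext g
    have h2 := hfix' g
    rw [← hβχ, Pi.mul_apply, Pi.mul_apply, hχfix] at h2
    exact h2
  obtain ⟨ψ, hψ⟩ := exists_quotient_irr ⟨β, hβ⟩ N hker
  have hreal : ∀ q : G ⧸ N, ((ψ : G ⧸ N → ℂ) q).im = 0 := by
    intro q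
    obtain ⟨g, rfl⟩ := QuotientGroup.mk_surjective q
    rw [← Complex.conj_eq_iff_im, ← apply_inv (isCharacter_of_irr ψ.2), ← mk_pow_eq_inv hk hodd, hψ, hψ]
    exact congrFun heq g
  have hone := Cfsg.Agent.S0161.result (G := G ⧸ N) hodd ψ hreal
  rw [← hβχ]
  funext g
  have h3 : β g = 1 := (hψ g).symm.trans (congrFun hone (g : G ⧸ N))
  rw [Pi.mul_apply, h3, one_mul]

/-- Existence of a fixed extension for a `p`-group quotient. -/
theorem exists_fixed_extension_pgroup (p : ℕ) [Fact p.Prime] (n : ℕ) : ∀ (G : Type u) [Group G] [Fintype G]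
    (N : Subgroup G) [hN : N.Normal], N.index = n → IsPGroup p (G ⧸ N) → InvertsOdd G k → Odd N.index →
    ∀ θ : N → ℂ, Cfsg.IsIrrCharacter N θ → (∀ g : G, conjFun g θ = θ) → (∀ x : N, θ (x ^ k) = θ x) →
      ∃ η : G → ℂ, Cfsg.IsIrrCharacter G η ∧ (∀ x : N, η x = θ x) ∧ ∀ g, η (g ^ k) = η g := by
  induction n using Nat.strong_induction_on with
  | _ n ih =>
  intro G _ _ N hN hn hp hk hodd θ hθ hinv hfix
  classical
  suffices hext : ∃ η : G → ℂ, Cfsg.IsIrrCharacter G η ∧ ∀ x : N, η x = θ x by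
    obtain ⟨η, hη, hres⟩ := hext
    exact exists_fixed_of_extension hk hodd hθ hfix hη hres
  by_cases htop : N = ⊤
  · subst htop
    exact ⟨fun g => θ ⟨g, Subgroup.mem_top g⟩,
      CfsgLib.Clifford.isIrrCharacter_comp hθ (Subgroup.topEquiv : _ ≃* G).symm.toMonoidHom
        (Subgroup.topEquiv : _ ≃* G).symm.surjective, fun x => rfl⟩
  obtain ⟨j, hj⟩ := IsPGroup.iff_card.mp hp
  have hj0 : j ≠ 0 := fun h => htop (Subgroup.index_eq_one.mp (by rw [Subgroup.index, hj, h, pow_zero]))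
  obtain ⟨H, hH⟩ := Sylow.exists_subgroup_card_pow_prime (G := G ⧸ N) p (n := j - 1)
    (hj ▸ pow_dvd_pow p (Nat.sub_le j 1))
  have hHidx : H.index = p := by
    have h := H.card_mul_index
    rw [hH, hj] at h
    conv_rhs at h => rw [show j = j - 1 + 1 by omega, pow_succ]
    exact Nat.eq_of_mul_eq_mul_left (pow_pos (Nat.Prime.pos Fact.out) _) h
  haveI hHn : H.Normal := Subgroup.normal_of_index_eq_minFac_card (by
    rw [hHidx, hj, Nat.Prime.pow_minFac Fact.out hj0])
  let M : Subgroup G := H.comap (QuotientGroup.mk' N)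
  have hNM : N ≤ M := fun x hx => by
    rw [Subgroup.mem_comap, QuotientGroup.mk'_apply, (QuotientGroup.eq_one_iff x).mpr hx]
    exact H.one_mem
  have hMidx : M.index = p := by
    rw [Subgroup.index_comap_of_surjective _ (QuotientGroup.mk'_surjective N), hHidx]
  haveI hMn : M.Normal := Subgroup.Normal.comap hHn _
  let := Fintype.ofFinite M
  let := Fintype.ofFinite N
  let := Fintype.ofFinite (N.subgroupOf M)
  let E : N.subgroupOf M ≃* N := Subgroup.subgroupOfEquivOfLe hNM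
  have hrel : N.relIndex M * p = N.index := hMidx ▸ Subgroup.relIndex_mul_index hNM
  have hlt : (N.subgroupOf M).index < n := by
    rw [← hn, ← hrel]
    change N.relIndex M < _
    exact lt_mul_of_one_lt_right (Nat.pos_of_ne_zero Subgroup.index_ne_zero_of_finite) (Nat.Prime.one_lt Fact.out)
  have hodd' : Odd (N.subgroupOf M).index := (Nat.odd_mul.mp (hrel ▸ hodd)).1
  have hpM : IsPGroup p (M ⧸ N.subgroupOf M) := by
    refine hp.of_injective (QuotientGroup.map (N.subgroupOf M) N M.subtype fun x hx => hx) fun a b hab => ?_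
    obtain ⟨a, rfl⟩ := QuotientGroup.mk_surjective a
    obtain ⟨b, rfl⟩ := QuotientGroup.mk_surjective b
    change ((a : G) : G ⧸ N) = ((b : G) : G ⧸ N) at hab
    rw [QuotientGroup.eq] at hab
    exact QuotientGroup.eq.mpr hab
  have hθ' : Cfsg.IsIrrCharacter (N.subgroupOf M) (fun m => θ (E m)) :=
    CfsgLib.Clifford.isIrrCharacter_comp hθ E.toMonoidHom E.surjective
  obtain ⟨ψ, hψ, hψext, hψfix⟩ := ih _ hlt M (N.subgroupOf M) rfl hpM (hk.subgroup M) hodd' (fun m => θ (E m)) hθ'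
    (fun g => funext fun m => congrFun (hinv g) (E m)) (fun m => by rw [map_pow, hfix])
  have hψinv : ∀ g : G, conjFun g ψ = ψ := by
    intro g
    refine fixed_eq_of_fixed_extension (hk.subgroup M) hodd' hθ' hψ hψext hψfix (isIrrCharacter_conjFun g hψ) ?_ ?_
    · have h1 : (fun m : N.subgroupOf M => conjFun g ψ m) = fun m => θ (E m) := funext fun m => by
        have h2 := hψext ⟨⟨g * ((m : M) : G) * g⁻¹, hMn.conj_mem _ (m : M).2 g⟩, hN.conj_mem _ m.2 g⟩
        rw [CfsgLib.Clifford.conjFun_apply, h2]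
        exact congrFun (hinv g) (E m)
      rw [h1, classInner_self hθ']
      exact one_ne_zero
    · intro m
      rw [CfsgLib.Clifford.conjFun_apply, CfsgLib.Clifford.conjFun_apply]
      conv_rhs => rw [← hψfix]
      refine congrArg ψ (Subtype.ext ?_)
      simp only [Subgroup.coe_pow]
      exact map_pow (MulAut.conj g) (m : G) k
  obtain ⟨d, σ, hσ, hσψ⟩ := id hψ
  obtain ⟨ρ, hρ, hρres⟩ := exists_extension_of_cyclic (G := G) (N := M)
    (isCyclic_of_prime_card (p := p) (by rw [← Subgroup.index]; exact hMidx)) hσ fun g m => by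
      rw [hσψ]
      have := congrFun (hψinv g) m
      rw [conjFun_eq_comp] at this
      exact this
  refine ⟨ρ.character, ⟨d, ρ, hρ, rfl⟩, fun x => ?_⟩
  have h1 : ρ.character x = ψ ⟨x, hNM x.2⟩ := by
    rw [← hσψ, Representation.character, Representation.character, ← hρres]
  rw [h1]
  exact hψext (E.symm x)

/-- Existence of a fixed extension. -/
theorem exists_fixed_extension [Fintype G] [Fintype N] (hk : InvertsOdd G k) (hodd : Odd N.index) {θ : N → ℂ}
    (hθ : Cfsg.IsIrrCharacter N θ) (hinv : ∀ g : G, conjFun g θ = θ) (hfix : ∀ x : N, θ (x ^ k) = θ x) :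
    ∃ η : G → ℂ, Cfsg.IsIrrCharacter G η ∧ (∀ x : N, η x = θ x) ∧ ∀ g, η (g ^ k) = η g := by
  classical
  obtain ⟨χ, hχ, hext⟩ := exists_charExtension_of_sylow hθ (fun g n => congrFun (hinv g) n) fun p hp => by
    haveI : Fact p.Prime := ⟨hp⟩
    let S : Sylow p (G ⧸ N) := default
    let P : Subgroup G := (S : Subgroup (G ⧸ N)).comap (QuotientGroup.mk' N)
    have hNP : N ≤ P := fun x hx => by
      rw [Subgroup.mem_comap, QuotientGroup.mk'_apply, (QuotientGroup.eq_one_iff x).mpr hx]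
      exact Subgroup.one_mem _
    have hPidx : P.index = (S : Subgroup (G ⧸ N)).index :=
      Subgroup.index_comap_of_surjective _ (QuotientGroup.mk'_surjective N)
    letI := Fintype.ofFinite P
    let E : N.subgroupOf P ≃* N := Subgroup.subgroupOfEquivOfLe hNP
    have hrel : N.relIndex P * P.index = N.index := Subgroup.relIndex_mul_index hNP
    have hodd' : Odd (N.subgroupOf P).index := (Nat.odd_mul.mp (hrel ▸ hodd)).1
    let f : P ⧸ N.subgroupOf P →* (S : Subgroup (G ⧸ N)) :=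
      (QuotientGroup.map (N.subgroupOf P) N P.subtype fun x hx => hx).codRestrict _ fun q => by
        obtain ⟨a, rfl⟩ := QuotientGroup.mk_surjective q
        exact a.2
    have hpP : IsPGroup p (P ⧸ N.subgroupOf P) := by
      refine S.2.of_injective f fun a b hab => ?_
      obtain ⟨a, rfl⟩ := QuotientGroup.mk_surjective a
      obtain ⟨b, rfl⟩ := QuotientGroup.mk_surjective b
      have h2 := congrArg Subtype.val hab
      change ((a : G) : G ⧸ N) = ((b : G) : G ⧸ N) at h2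
      rw [QuotientGroup.eq] at h2
      exact QuotientGroup.eq.mpr h2
    obtain ⟨η, hη, hres, -⟩ := exists_fixed_extension_pgroup (k := k) p _ P (N.subgroupOf P) rfl hpP
      (hk.subgroup P) hodd' (fun m => θ (E m)) (CfsgLib.Clifford.isIrrCharacter_comp hθ E.toMonoidHom E.surjective)
      (fun g => funext fun m => congrFun (hinv g) (E m)) (fun m => by rw [map_pow, hfix])
    refine ⟨P, hNP, η, ?_, isCharacter_of_irr hη, fun n => hres (E.symm n)⟩
    rw [hPidx]
    exact (hp.coprime_iff_not_dvd.mpr S.not_dvd_index).symm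
  exact exists_fixed_of_extension hk hodd hθ hfix hχ hext

omit hN in
theorem indFun_pow [Fintype G] (hk : k.Coprime (Nat.card G)) (T : Subgroup G) (ψ : T → ℂ) (g : G) :
    Cfsg.indFun T ψ (g ^ k) = Cfsg.indFun T (fun t => ψ (t ^ k)) g := by
  classical
  simp only [Cfsg.indFun]
  congr 1
  refine Finset.sum_congr rfl fun x _ => ?_
  have hp : x⁻¹ * g ^ k * x = (x⁻¹ * g * x) ^ k := by
    have := map_pow (MulAut.conj x⁻¹) g k
    simpa using this
  rw [hp]
  by_cases h : x⁻¹ * g * x ∈ T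
  · rw [CfsgLib.IndFun.extendByZero_mem _ (T.pow_mem h k), CfsgLib.IndFun.extendByZero_mem _ h]
    rfl
  · rw [CfsgLib.IndFun.extendByZero_not_mem _ h, CfsgLib.IndFun.extendByZero_not_mem]
    exact fun hh => h ((CfsgLib.BrauerInd.mem_pow_iff hk T _).mp hh)

/-- Exactly one fixed character lies over a fixed character. -/
theorem existsUnique_fixed_over [Fintype G] [Fintype N] (hk : InvertsOdd G k) (hodd : Odd N.index) {θ : N → ℂ}
    (hθ : Cfsg.IsIrrCharacter N θ) (hfix : ∀ x : N, θ (x ^ k) = θ x) :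
    ∃ χ : G → ℂ, (Cfsg.IsIrrCharacter G χ ∧ Cfsg.classInner (fun n : N => χ n) θ ≠ 0 ∧
        (∀ g, χ (g ^ k) = χ g) ∧ ((∀ g : G, conjFun g θ = θ) → ∀ n : N, χ n = θ n)) ∧
      ∀ χ' : G → ℂ, Cfsg.IsIrrCharacter G χ' → Cfsg.classInner (fun n : N => χ' n) θ ≠ 0 →
        (∀ g, χ' (g ^ k) = χ' g) → χ' = χ := by
  classical
  set T := inertia θ with hT
  have hNT : N ≤ T := le_inertia (CfsgLib.CharBasics.isClassFunction (isCharacter_of_irr hθ))
  let := Fintype.ofFinite T
  let E : N.subgroupOf T ≃* N := Subgroup.subgroupOfEquivOfLe hNT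
  have hθ' : Cfsg.IsIrrCharacter (N.subgroupOf T) (fun m => θ (E m)) :=
    CfsgLib.Clifford.isIrrCharacter_comp hθ E.toMonoidHom E.surjective
  have hinv : ∀ g : T, conjFun g (fun m : N.subgroupOf T => θ (E m)) = fun m => θ (E m) := fun g =>
    funext fun m => congrFun (mem_inertia.mp g.2) (E m)
  have hoddT : Odd (N.subgroupOf T).index := (Nat.odd_mul.mp ((Subgroup.relIndex_mul_index hNT).symm ▸ hodd)).1
  have hinner : ∀ ψ : T → ℂ, Cfsg.classInner (fun m : N.subgroupOf T => ψ m) (fun m => θ (E m)) =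
      Cfsg.classInner (fun n : N => ψ ⟨(n : G), hNT n.2⟩) θ := fun ψ =>
    classInner_comp_equiv E (fun n : N => ψ ⟨(n : G), hNT n.2⟩) θ
  obtain ⟨ψ, hψ, hψext, hψfix⟩ := exists_fixed_extension (hk.subgroup T) hoddT hθ' hinv
    (fun m => by rw [map_pow, hfix])
  have hψne : Cfsg.classInner (fun n : N => ψ ⟨(n : G), hNT n.2⟩) θ ≠ 0 := by
    rw [← hinner, show (fun m : N.subgroupOf T => ψ m) = fun m => θ (E m) from funext hψext, classInner_self hθ']
    exact one_ne_zero
  obtain ⟨hirr, hmul⟩ := indFun_inertia_irr hθ T rfl hNT hψ hψne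
  refine ⟨Cfsg.indFun T ψ, ⟨hirr, hmul ▸ hψne, fun g => ?_, fun hall => ?_⟩, fun χ' hχ' hover hfix' => ?_⟩
  · rw [indFun_pow hk.1]
    congr 2
    exact funext hψfix
  · intro n
    have hres := restrict_eq_smul_of_invariant hirr hθ hall (hmul ▸ hψne)
    have h1 := congrFun hres n
    simp only [Pi.smul_apply, smul_eq_mul] at h1
    rw [h1, hmul, ← hinner, show (fun m : N.subgroupOf T => ψ m) = fun m => θ (E m) from funext hψext,
      classInner_self hθ', one_mul]
  · obtain ⟨ψ', hψ', hind, hin, -⟩ := exists_inertia_correspondent hχ' hθ hover T rfl hNT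
    have hne' : Cfsg.classInner (fun n : N => ψ' ⟨(n : G), hNT n.2⟩) θ ≠ 0 := hin ▸ hover
    have hfixψ' : ∀ t, ψ' (t ^ k) = ψ' t := by
      have hirr' : Cfsg.IsIrrCharacter T (fun t => ψ' (t ^ k)) :=
        CfsgLib.BrauerInd.isIrr_pow (hk.subgroup T).1 hψ'
      have hne'' : Cfsg.classInner (fun n : N => ψ' (⟨(n : G), hNT n.2⟩ ^ k)) θ ≠ 0 := by
        have hkN : k.Coprime (Nat.card N) := hk.1.coprime_dvd_right (Subgroup.card_subgroup_dvd_card N)
        have h1 : Cfsg.classInner (fun n : N => ψ' (⟨(n : G), hNT n.2⟩ ^ k)) θ =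
            Cfsg.classInner (fun n : N => ψ' ⟨(n : G), hNT n.2⟩) θ := by
          simp only [classInner_eq]
          congr 1
          refine Fintype.sum_equiv (powCoprime hkN.symm) _ _ fun n => ?_
          change _ = ψ' ⟨((n ^ k : N) : G), _⟩ * (starRingEnd ℂ) (θ (n ^ k))
          rw [hfix]
          rfl
        rw [h1]
        exact hne'
      refine congrFun (indFun_inertia_inj hθ T rfl hNT hirr' hψ' hne'' hne' ?_)
      funext g
      rw [← indFun_pow hk.1, hind, hfix']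
    have := fixed_eq_of_fixed_extension (hk.subgroup T) hoddT hθ' hψ hψext hψfix hψ'
      (by rw [hinner]; exact hne') hfixψ'
    rw [← hind, this]

end CfsgLib.Clifford
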